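import Cfsg.Agent.LFourA.AltPsiAut

/-!
# Perfect central extensions of `A₆` (S4816, box EXC, helper337)

`no_three`: if an automorphism trivial on the center induces the conjugation by a transposition, then `3 ∤ |Z(E)|`.
`not_conj_sq`: the element `(0 1 2 3 4)` is not conjugate to its square.
-/

set_option autoImplicit false

namespace Cfsg.Agent.H337.RIM

open Equiv Equiv.Perm Subgroup Cfsg.Agent.LFourA.AltPsiAut

/-- `(0 1 2)` -/
def ea : alternatingGroup (Fin 6) := ⟨swap 0 1 * swap 1 2, by rw [Perm.mem_alternatingGroup]; decide⟩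

/-- `(3 4 5)` -/
def eb : alternatingGroup (Fin 6) := ⟨swap 3 4 * swap 4 5, by rw [Perm.mem_alternatingGroup]; decide⟩

/-- `(0 1 2 3 4)` -/
def e5 : alternatingGroup (Fin 6) :=
  ⟨swap 0 1 * swap 1 2 * (swap 2 3 * swap 3 4), by rw [Perm.mem_alternatingGroup]; decide⟩

theorem ea3 : ea ^ 3 = 1 := by decide +kernel

theorem eb3 : eb ^ 3 = 1 := by decide +kernel

theorem eab : ea * eb = eb * ea := by decide +kernel

theorem sa_inv : (swap 0 1 : Perm (Fin 6)) * (ea : Perm (Fin 6)) * (swap 0 1)⁻¹ = ((ea⁻¹ : alternatingGroup (Fin 6)) : Perm (Fin 6)) := by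
  decide +kernel

theorem sb_fix : (swap 0 1 : Perm (Fin 6)) * (eb : Perm (Fin 6)) * (swap 0 1)⁻¹ = (eb : Perm (Fin 6)) := by
  decide +kernel

theorem e5_order : e5 ^ 5 = 1 := by decide +kernel

theorem e5_ne : e5 ≠ 1 := by decide +kernel

theorem conj5 : ∀ σ : Perm (Fin 6), σ * e5 = (e5 ^ 2 : alternatingGroup (Fin 6)) * σ → sign σ = -1 := by
  decide +kernel

theorem not_conj_sq : ¬ IsConj e5 (e5 ^ 2) := by
  intro h
  obtain ⟨g, hg⟩ := isConj_iff.1 h
  have h1 : (g : Perm (Fin 6)) * e5 = ((e5 ^ 2 : alternatingGroup (Fin 6)) : Perm (Fin 6)) * g := by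
    rw [← hg]
    simp
  have h2 := conj5 _ h1
  rw [Perm.mem_alternatingGroup.1 g.2] at h2
  exact absurd h2 (by decide)

/-- the elements `a ^ i b ^ j` -/
def fab (x : Fin 3 × Fin 3) : alternatingGroup (Fin 6) := ea ^ (x.1 : ℕ) * eb ^ (x.2 : ℕ)

theorem fab_inj : Function.Injective fab := by
  have : ∀ x y, fab x = fab y → x = y := by decide +kernel
  exact fun x y => this x y

/-- the subgroup `⟨a, b⟩` of order `9` -/
def P9 : Subgroup (alternatingGroup (Fin 6)) where
  carrier := Set.range fab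
  one_mem' := ⟨(0, 0), by decide +kernel⟩
  mul_mem' := by
    have : ∀ x y, fab x * fab y = fab (x.1 + y.1, x.2 + y.2) := by decide +kernel
    rintro _ _ ⟨x, rfl⟩ ⟨y, rfl⟩
    exact ⟨_, (this x y).symm⟩
  inv_mem' := by
    have : ∀ x, (fab x)⁻¹ = fab (-x.1, -x.2) := by decide +kernel
    rintro _ ⟨x, rfl⟩
    exact ⟨_, (this x).symm⟩

theorem card_P9 : Nat.card P9 = 9 := by
  have h : Nat.card (Set.range fab) = 9 := by
    rw [Nat.card_range_of_injective fab_inj, Nat.card_prod, Nat.card_fin]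
  exact h

theorem index_P9 : P9.index = 40 := by
  have h := P9.card_mul_index
  have h6 : Nat.card (alternatingGroup (Fin 6)) = 360 := by
    rw [nat_card_alternatingGroup, Nat.card_fin]
    decide
  rw [card_P9, h6] at h
  omega

theorem no_three {E : Type*} [Group E] [Finite E] (hE : commutator E = ⊤) (π : E →* alternatingGroup (Fin 6))
    (hπ : Function.Surjective π) (hk : π.ker = center E) (α : MulAut E) (hα : ∀ z ∈ center E, α z = z)
    (hs : ∀ x, (π (α x) : Perm (Fin 6)) = swap 0 1 * (π x : Perm (Fin 6)) * (swap 0 1)⁻¹) : ¬ 3 ∣ Nat.card (center E) := by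
  obtain ⟨A, hA⟩ := hπ ea
  obtain ⟨B, hB⟩ := hπ eb
  have hcen : ∀ z : E, π z = 1 → z ∈ center E := fun z hz => by rw [← hk]; exact hz
  -- the commutator
  have hw : A * B * A⁻¹ * B⁻¹ ∈ center E := by
    apply hcen
    rw [map_mul, map_mul, map_mul, map_inv, map_inv, hA, hB, eab]
    group
  have hwc := mem_center_iff.1 hw
  obtain ⟨w, hwd⟩ : ∃ w, w = A * B * A⁻¹ * B⁻¹ := ⟨_, rfl⟩
  rw [← hwd] at hw hwc
  have hAB : A * B = w * (B * A) := by rw [hwd]; group
  -- `α A = A⁻¹ z₁`
  have h1 : A * α A ∈ center E := by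
    apply hcen
    have h2 : π (α A) = ea⁻¹ := Subtype.ext (by rw [hs, hA, sa_inv])
    rw [map_mul, h2, hA, mul_inv_cancel]
  have h2 : B⁻¹ * α B ∈ center E := by
    apply hcen
    have h3 : π (α B) = eb := Subtype.ext (by rw [hs, hB, sb_fix])
    rw [map_mul, map_inv, h3, hB, inv_mul_cancel]
  obtain ⟨z1, hz1⟩ : ∃ z, z = A * α A := ⟨_, rfl⟩
  obtain ⟨z2, hz2⟩ : ∃ z, z = B⁻¹ * α B := ⟨_, rfl⟩
  rw [← hz1] at h1
  rw [← hz2] at h2
  have e1 : α A = A⁻¹ * z1 := by rw [hz1]; group
  have e2 : α B = B * z2 := by rw [hz2]; group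
  have c1 := mem_center_iff.1 h1
  have c2 := mem_center_iff.1 h2
  have h3 : A⁻¹ * B = w * (B * A⁻¹) := by
    have h4 : α (A * B) = α (w * (B * A)) := by rw [hAB]
    rw [map_mul, map_mul, map_mul, hα w hw, e1, e2] at h4
    have h5 : A⁻¹ * z1 * (B * z2) = A⁻¹ * B * (z1 * z2) := by
      rw [mul_assoc, ← mul_assoc z1, ← c1 B]; group
    have h6 : w * (B * z2 * (A⁻¹ * z1)) = w * (B * A⁻¹) * (z1 * z2) := by
      have : B * z2 * (A⁻¹ * z1) = B * A⁻¹ * (z1 * z2) := by
        rw [mul_assoc, ← mul_assoc z2, ← c2 A⁻¹, mul_assoc, c1 z2, ← mul_assoc, ← mul_assoc]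
      rw [this, mul_assoc w]
    rw [h5, h6] at h4
    exact mul_right_cancel h4
  -- `w ^ 2 = 1`
  have h4 : w * w = 1 := by
    have h5 : B = A * (w * (B * A⁻¹)) := by rw [← h3]; group
    have h6 : A * (w * (B * A⁻¹)) = w * w * B := by
      calc A * (w * (B * A⁻¹)) = w * (A * B) * A⁻¹ := by
            rw [← mul_assoc, hwc A]; group
        _ = w * w * B := by rw [hAB]; group
    rw [h6] at h5
    exact mul_right_cancel (b := B) (by rw [one_mul]; exact h5.symm)
  -- `w ^ 3 = 1`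
  have h5 : w ^ 3 = 1 := by
    have h6 : A ^ 3 ∈ center E := hcen _ (by rw [map_pow, hA, ea3])
    have h7 : A ^ 3 * B = w ^ 3 * (B * A ^ 3) := by
      have s1 : A ^ 2 * B = w ^ 2 * (B * A ^ 2) := by
        calc A ^ 2 * B = A * (A * B) := by rw [pow_two, mul_assoc]
          _ = A * w * (B * A) := by rw [hAB]; group
          _ = w * (A * B) * A := by rw [hwc A]; group
          _ = w ^ 2 * (B * A ^ 2) := by rw [hAB, pow_two, pow_two]; simp only [mul_assoc]
      have hw2 : A * w ^ 2 = w ^ 2 * A := by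
        have := mem_center_iff.1 (pow_mem hw 2) A
        exact this
      calc A ^ 3 * B = A * (A ^ 2 * B) := by rw [pow_succ', mul_assoc]
        _ = A * w ^ 2 * (B * A ^ 2) := by rw [s1, mul_assoc]
        _ = w ^ 2 * (A * B) * A ^ 2 := by rw [hw2]; simp only [mul_assoc]
        _ = w ^ 3 * (B * A ^ 3) := by rw [hAB, pow_succ w 2, pow_succ' A 2]; simp only [mul_assoc]
    have h8 := mem_center_iff.1 h6 B
    rw [h8] at h7
    exact mul_right_cancel (b := A ^ 3 * B) (by rw [one_mul]; exact h7.symm)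
  have hw1 : w = 1 := by
    have : w ^ 3 = w * w * w := by rw [pow_succ, pow_two]
    rw [this, h4, one_mul] at h5
    exact h5
  rw [hw1, one_mul] at hAB
  -- the preimage of `P9` is abelian
  have hform : ∀ x : P9.comap π, ∃ (i j : ℕ) (z : E), z ∈ center E ∧ (x : E) = A ^ i * B ^ j * z := by
    rintro ⟨x, ⟨y, hy⟩⟩
    refine ⟨y.1, y.2, (A ^ (y.1 : ℕ) * B ^ (y.2 : ℕ))⁻¹ * x, ?_, by group⟩
    apply hcen
    rw [map_mul, map_inv, map_mul, map_pow, map_pow, hA, hB, ← hy]
    exact inv_mul_cancel _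
  have hcomm : ∀ x y : P9.comap π, x * y = y * x := by
    intro x y
    obtain ⟨i, j, z, hz, hx⟩ := hform x
    obtain ⟨k, l, z', hz', hy⟩ := hform y
    apply Subtype.ext
    rw [Subgroup.coe_mul, Subgroup.coe_mul, hx, hy]
    have cz : ∀ g : E, Commute g z := fun g => mem_center_iff.1 hz g
    have cz' : ∀ g : E, Commute g z' := fun g => mem_center_iff.1 hz' g
    have cAB : Commute A B := hAB
    have k1 : Commute (A ^ i * B ^ j) (A ^ k * B ^ l) := by
      refine Commute.mul_left ?_ ?_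
      · exact Commute.mul_right ((Commute.refl A).pow_pow i k) (cAB.pow_pow i l)
      · exact Commute.mul_right (cAB.symm.pow_pow j k) ((Commute.refl B).pow_pow j l)
    have k2 : Commute (A ^ i * B ^ j * z) (A ^ k * B ^ l * z') := by
      refine Commute.mul_left (Commute.mul_right k1 (cz' _)) (Commute.mul_right (cz _).symm (cz' _))
    exact k2
  intro h3d
  have hfact : Fact (Nat.Prime 3) := ⟨Nat.prime_three⟩
  obtain ⟨z, hz⟩ := exists_prime_orderOf_dvd_card' (G := center E) 3 h3d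
  letI : CommGroup (P9.comap π) := { (inferInstance : Group (P9.comap π)) with mul_comm := hcomm }
  have hidx : (P9.comap π).index = 40 := by rw [index_comap_of_surjective _ hπ, index_P9]
  have key : ∀ (k : ℕ) (g₀ : E), g₀⁻¹ * (z : E) ^ k * g₀ ∈ P9.comap π → g₀⁻¹ * (z : E) ^ k * g₀ = (z : E) ^ k := by
    intro k g₀ _
    have := mem_center_iff.1 (pow_mem z.2 k) g₀
    rw [mul_assoc, ← this, inv_mul_cancel_left]
  have ht := MonoidHom.transfer_eq_pow (MonoidHom.id (P9.comap π)) (z : E) key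
  have htriv : MonoidHom.transfer (MonoidHom.id (P9.comap π)) (z : E) = 1 := by
    have h1 := Abelianization.commutator_subset_ker (MonoidHom.transfer (MonoidHom.id (P9.comap π)))
    rw [hE] at h1
    exact h1 (mem_top (z : E))
  rw [htriv] at ht
  have h40 : (z : E) ^ 40 = 1 := by
    have := congrArg Subtype.val ht
    simp only [MonoidHom.id_apply] at this
    rw [← hidx]
    exact this.symm
  have h41 : z ^ 40 = 1 := Subtype.ext h40
  have h42 := orderOf_dvd_of_pow_eq_one h41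
  rw [hz] at h42
  norm_num at h42

end Cfsg.Agent.H337.RIM
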