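import Cfsg.Agent.H849.RIM.DzCount
import Cfsg.Agent.H382.RIM.Tool
import Cfsg.Agent.H337.RIM.A6G

/-!
# The faithful characters of `6.A₆` (S4816, box EXC, helper337)

`card_dvd`: for a perfect group the order of the center divides the degree of a character faithful on the center.
`four_le`: `E` perfect, `E ⧸ Z(E) ≅ A₆`, `6 ∣ |Z(E)|`: there are at least four characters over a faithful `c`.
-/

set_option autoImplicit false

namespace Cfsg.Agent.H337.RIM

open Cfsg Subgroup Cfsg.Agent.H622.Over

universe u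

variable {E : Type u} [Group E]

theorem pow_charDegree (hE : commutator E = ⊤) {c : center E →* ℂˣ} {χ : E → ℂ} (hχ : IsIrrCharacter E χ)
    (hl : Lies (center E) c χ) (z : center E) : (c z : ℂ) ^ charDegree χ = 1 := by
  obtain ⟨n, ρ, hρ, rfl⟩ := hχ
  obtain ⟨c', hc'⟩ := CharactersDeep.Extraspecial.exists_central_hom_rep ρ hρ
  have h1 : ρ.character 1 = (n : ℂ) := by
    rw [Representation.char_one, Module.finrank_fin_fun]
  have hn : charDegree ρ.character = n := Blocks.Basic.charDegree_of_eq h1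
  have h0 : ρ.character 1 ≠ 0 := Characters.Core.isIrr_apply_one_ne_zero ⟨n, ρ, hρ, rfl⟩
  have h2 : (c z : ℂ) = c' z := by
    have h3 := hl 1 z
    have h4 : ρ.character (1 * (z : E)) = ρ.character 1 * c' z := by
      rw [one_mul]
      change LinearMap.trace ℂ _ (ρ z) = LinearMap.trace ℂ _ (ρ 1) * c' z
      rw [hc' z, map_smul, map_one, smul_eq_mul, mul_comm]
      rfl
    rw [h4] at h3
    exact (mul_left_cancel₀ h0 h3).symm
  have h5 : LinearMap.det (ρ (z : E)) = 1 := by
    have h6 := Abelianization.commutator_subset_ker (MonoidHom.toHomUnits (LinearMap.det.comp ρ))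
    rw [hE] at h6
    have h7 := h6 (mem_top (z : E))
    rw [MonoidHom.mem_ker] at h7
    exact congrArg Units.val h7
  rw [hc' z, LinearMap.det_smul, LinearMap.det_id, mul_one, Module.finrank_fin_fun] at h5
  rw [hn, h2]
  exact h5

theorem card_dvd [Finite E] (hE : commutator E = ⊤) {c : center E →* ℂˣ} (hc : Function.Injective c) {χ : E → ℂ}
    (hχ : IsIrrCharacter E χ) (hl : Lies (center E) c χ) : Nat.card (center E) ∣ charDegree χ := by
  have hcyc : IsCyclic (center E) := by
    refine isCyclic_of_injective_ringHom ((Units.coeHom ℂ).comp c) ?_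
    intro x y h
    exact hc (Units.ext h)
  obtain ⟨z, hz⟩ := IsCyclic.exists_ofOrder_eq_natCard (α := center E)
  rw [← hz]
  apply orderOf_dvd_of_pow_eq_one
  apply hc
  rw [map_pow, map_one]
  apply Units.ext
  rw [Units.val_pow_eq_pow_val, Units.val_one]
  exact pow_charDegree hE hχ hl z

theorem four_le [Finite E] (hE : commutator E = ⊤) (q : (E ⧸ center E) ≃* alternatingGroup (Fin 6))
    (h6 : 6 ∣ Nat.card (center E)) {c : center E →* ℂˣ} (hc : Function.Injective c) :
    4 ≤ Nat.card {χ : IrrCharacter E // Lies (center E) c (χ : E → ℂ)} := by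
  classical
  have := Characters.Core.finite_irr (G := E)
  have := Fintype.ofFinite (IrrCharacter E)
  have hq : Nat.card (E ⧸ center E) = 360 := by
    rw [Nat.card_congr q.toEquiv, nat_card_alternatingGroup, Nat.card_fin]
    decide
  have hsum := H382.RIM.sum_deg_over (le_refl (center E)) c
  have hcard := card_eq_card_quotient_mul_card_subgroup (center E)
  rw [hq] at hcard
  have hpos : 0 < Nat.card (center E) := Nat.card_pos
  obtain ⟨k, hk⟩ : ∃ k, Nat.card (center E) = k := ⟨_, rfl⟩
  rw [hcard, hk, mul_comm 360 k] at hsum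
  rw [hk] at hpos h6
  have hs : ∑ χ ∈ H382.RIM.ov (center E) c, charDegree (χ : E → ℂ) ^ 2 = 360 := Nat.eq_of_mul_eq_mul_left hpos hsum
  have hdv : ∀ χ ∈ H382.RIM.ov (center E) c, k ∣ charDegree (χ : E → ℂ) := by
    intro χ hχ
    rw [← hk]
    exact card_dvd hE hc χ.2 (H382.RIM.mem_ov.1 hχ)
  -- `k = 6`
  have hk6 : k = 6 := by
    obtain ⟨m, rfl⟩ := h6
    have h1 : (6 * m) ^ 2 ∣ 360 := by
      rw [← hs]
      exact Finset.dvd_sum fun χ hχ => pow_dvd_pow_of_dvd (hdv χ hχ) 2
    have h2 : m ≤ 3 := by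
      have := Nat.le_of_dvd (by norm_num) h1
      nlinarith
    interval_cases m
    · simp at h1
    · rfl
    · norm_num at h1
    · norm_num at h1
  -- at least three
  have h3 : 3 ≤ (H382.RIM.ov (center E) c).card := by
    rw [← H382.RIM.card_ov]
    set x : E ⧸ center E := q.symm e5 with hx
    have hqx : q x = e5 := q.apply_symm_apply e5
    have hx5 : orderOf x = 5 := by
      have hf : Fact (Nat.Prime 5) := ⟨by norm_num⟩
      rw [hx, MulEquiv.orderOf_eq]
      exact orderOf_eq_prime e5_order e5_ne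
    have hx2 : orderOf (x ^ 2) = 5 := by
      rw [orderOf_pow, hx5]
      rfl
    have hn1 : ConjClasses.mk (1 : E ⧸ center E) ≠ ConjClasses.mk x := by
      intro h
      have h := ConjClasses.mk_eq_mk_iff_isConj.1 h
      have h2 := isConj_one_right.1 h.symm.symm
      rw [h2, orderOf_one] at hx5
      norm_num at hx5
    have hn2 : ConjClasses.mk (1 : E ⧸ center E) ≠ ConjClasses.mk (x ^ 2) := by
      intro h
      have h := ConjClasses.mk_eq_mk_iff_isConj.1 h
      have h2 := isConj_one_right.1 h.symm.symm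
      rw [h2, orderOf_one] at hx2
      norm_num at hx2
    have hn3 : ConjClasses.mk x ≠ ConjClasses.mk (x ^ 2) := by
      intro h
      have h := ConjClasses.mk_eq_mk_iff_isConj.1 h
      obtain ⟨g, hg⟩ := isConj_iff.1 h
      refine not_conj_sq (isConj_iff.2 ⟨q g, ?_⟩)
      rw [← hqx, ← map_pow, ← hg, map_mul, map_mul, map_inv]
    have hF := H849.RIM.card_good_ge (le_refl (center E)) c {ConjClasses.mk 1, ConjClasses.mk x, ConjClasses.mk (x ^ 2)}
      (by
        intro C hC
        simp only [Finset.mem_insert, Finset.mem_singleton] at hC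
        rw [hk, hk6]
        rcases hC with rfl | rfl | rfl
        · exact ⟨1, rfl, by rw [orderOf_one]; exact Nat.coprime_one_left _⟩
        · exact ⟨x, rfl, by rw [hx5]; decide⟩
        · exact ⟨x ^ 2, rfl, by rw [hx2]; decide⟩)
    rw [Finset.card_eq_three.2 ⟨_, _, _, hn1, hn2, hn3, rfl⟩] at hF
    exact hF
  rw [H382.RIM.card_ov]
  by_contra h4
  have h5 : (H382.RIM.ov (center E) c).card = 3 := by omega
  obtain ⟨χ₁, χ₂, χ₃, h12, h13, h23, he⟩ := Finset.card_eq_three.1 h5
  rw [he] at hs hdv
  have d1 := hdv χ₁ (by simp)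
  have d2 := hdv χ₂ (by simp)
  have d3 := hdv χ₃ (by simp)
  rw [Finset.sum_insert (by simp [h12, h13]), Finset.sum_insert (by simp [h23]), Finset.sum_singleton] at hs
  have p1 := Blocks.Basic.charDegree_pos χ₁.2
  have p2 := Blocks.Basic.charDegree_pos χ₂.2
  have p3 := Blocks.Basic.charDegree_pos χ₃.2
  rw [hk6] at d1 d2 d3
  obtain ⟨a, ha⟩ := d1
  obtain ⟨b, hb⟩ := d2
  obtain ⟨d, hd⟩ := d3
  rw [ha] at p1 hs
  rw [hb] at p2 hs
  rw [hd] at p3 hs
  have hs' : a ^ 2 + b ^ 2 + d ^ 2 = 10 := by nlinarith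
  have ha3 : a ≤ 3 := by nlinarith
  have hb3 : b ≤ 3 := by nlinarith
  have hd3 : d ≤ 3 := by nlinarith
  interval_cases a <;> interval_cases b <;> interval_cases d <;> omega

end Cfsg.Agent.H337.RIM
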